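import Mathlib

namespace Cfsg.Agent.Lead

variable {G : Type*} [Group G]

/-- The natural map `H ⧸ (K ⊓ H) → G ⧸ K`. -/
def quotMapOfSubgroup (H K : Subgroup G) : H ⧸ K.subgroupOf H → G ⧸ K :=
  Quotient.map' (fun h : H => (h : G)) (by
    intro a b hab
    rw [QuotientGroup.leftRel_apply] at hab ⊢
    simpa [Subgroup.mem_subgroupOf] using hab)

theorem quotMapOfSubgroup_injective (H K : Subgroup G) :
    Function.Injective (quotMapOfSubgroup H K) := by
  intro a b
  refine Quotient.inductionOn₂' a b ?_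
  intro a b hab
  have h2 : ((a : G) : G ⧸ K) = ((b : G) : G ⧸ K) := hab
  rw [QuotientGroup.eq] at h2
  apply Quotient.sound'
  rw [QuotientGroup.leftRel_apply]
  simpa [Subgroup.mem_subgroupOf] using h2

theorem quotMapOfSubgroup_surjective (H K : Subgroup G)
    (h : ∀ g : G, ∃ x ∈ H, ∃ y ∈ K, g = x * y) :
    Function.Surjective (quotMapOfSubgroup H K) := by
  intro q
  induction q using Quotient.inductionOn' with
  | h g =>
    obtain ⟨x, hx, y, hy, rfl⟩ := h g
    refine ⟨Quotient.mk'' (⟨x, hx⟩ : H), ?_⟩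
    show ((x : G) : G ⧸ K) = ((x * y : G) : G ⧸ K)
    rw [QuotientGroup.eq]
    simpa using hy

/-- If `G = H K` then `[H : H ∩ K] = [G : K]`. -/
theorem relIndex_eq_index_of_forall_mul (H K : Subgroup G)
    (h : ∀ g : G, ∃ x ∈ H, ∃ y ∈ K, g = x * y) : K.relIndex H = K.index :=
  Nat.card_congr (Equiv.ofBijective _
    ⟨quotMapOfSubgroup_injective H K, quotMapOfSubgroup_surjective H K h⟩)

end Cfsg.Agent.Lead
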